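import Cfsg.Agent.H107.AN.BFour
import Cfsg.Agent.H35.AN.A3
import Cfsg.Agent.H71.AN.Deg
import Cfsg.Agent.H89.AN.AOneTwo

/-!
# S4766 B4 from B1, B2, B3 (helper107)
-/

set_option autoImplicit false

namespace Cfsg.Agent.H107.AN

open Cfsg Cfsg.Agent.H691.AN

universe u

/-- **B4** from B1, B2, B3 -/
theorem b4_linear_of (b1 : B1.{u}) (b2 : B2.{u}) (b3 : B3.{u}) {n : ℕ} (hn : 20 ≤ n)
    {G : Type u} [Group G] [Finite G] [Group.IsSolvable G]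
    (h : charDegrees G = D n) : ∃ A : Subgroup G, A.Normal ∧ commutator G ≤ A ∧ A.index = n - 1 ∧
      ∃ χ : G → ℂ, IsIrrCharacter G χ ∧ χ 1 = (n - 1 : ℕ) ∧ ∀ g ∈ ⁅A, A⁆, χ g = χ 1 :=
  b4_of (fun hn => H35.AN.a3_low hn)
    (fun hn => H71.AN.a4_of (fun hn => H89.AN.a1_mem hn) hn)
    (fun hn => H71.AN.a6_of (fun hn => H89.AN.a2_part hn) hn) b1 b2 b3 hn h

end Cfsg.Agent.H107.AN
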